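import Cfsg.Agent.Lib.KPerm.Num
import Cfsg.Agent.Lib.Perm.JordanPrime
import Cfsg.Agent.S4198

/-! A permutation group of degree `n` has at most `2 ^ (n - 1)` conjugacy classes. -/

set_option autoImplicit false
open Finset MulAction Equiv
open scoped Classical

namespace CfsgLib.KPerm

universe u

local notation "c2" => (14954 / 10000 : ℝ)

/-- The statement for degree `m`. -/
def KB (m : ℕ) : Prop := ∀ (β : Type u) [Fintype β] (H : Subgroup (Perm β)), Fintype.card β = m →
  Nat.card (ConjClasses H) ≤ 2 ^ (m - 1)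

theorem k_le_of_surj {X Y : Type*} [Group X] [Group Y] [Finite X] (φ : X →* Y)
    (h : Function.Surjective φ) : Nat.card (ConjClasses Y) ≤ Nat.card (ConjClasses X) :=
  Nat.card_le_card_of_surjective _ (ConjClasses.map_surjective h)

theorem k_le_card (X : Type*) [Group X] [Finite X] : Nat.card (ConjClasses X) ≤ Nat.card X :=
  Nat.card_le_card_of_surjective _ ConjClasses.mk_surjective

theorem k_le_ker {X β : Type u} [Group X] [Finite X] [Fintype β] [MulAction X β] {m : ℕ}
    (hm : Fintype.card β = m) (h : KB.{u} m) : Nat.card (ConjClasses X) ≤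
      Nat.card (ConjClasses (toPermHom X β).ker) * 2 ^ (m - 1) :=
  (Fgs.card_conjClasses_le_mul_quotient _).trans (Nat.mul_le_mul_left _
    ((k_le_of_surj (QuotientGroup.quotientKerEquivRange (toPermHom X β)).symm.toMonoidHom
      (MulEquiv.surjective _)).trans (h β _ hm)))

variable {α : Type u} [Fintype α]

theorem k_fibres {ι : Type*} [DecidableEq ι] (f : α → ι) (s : Finset ι)
    (hs : ∀ i ∈ s, KB.{u} (univ.filter (f · = i)).card) :
    ∀ (X : Type u) [Group X] [Finite X] [MulAction X α], (∀ (g : X) a, f (g • a) = f a) →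
      (∀ g : X, (∀ a, f a ∈ s → g • a = a) → g = 1) →
      Nat.card (ConjClasses X) ≤ 2 ^ ∑ i ∈ s, ((univ.filter (f · = i)).card - 1) := by
  induction s using Finset.induction_on with
  | empty =>
    intro X _ _ _ _ h
    have : Subsingleton X := ⟨fun a b => by rw [h a (by simp), h b (by simp)]⟩
    simpa using (k_le_card X).trans (Finite.card_le_one_iff_subsingleton.2 this)
  | insert i s hi ih =>
    intro X _ _ _ hf h
    let S : SubMulAction X α := ⟨{a | f a = i}, fun g a ha => (hf g a).trans ha⟩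
    rw [sum_insert hi, pow_add, mul_comm]
    have h0 : ∀ a, a ∈ univ.filter (f · = i) ↔ a ∈ S := fun a => mem_filter_univ a
    refine (k_le_ker (β := S) (Fintype.card_of_subtype _ h0)
      (hs i (mem_insert_self _ _))).trans
      (Nat.mul_le_mul_right _ (ih (fun j hj => hs j (mem_insert_of_mem hj)) _
        (fun g a => hf g a) fun g hg => Subtype.ext (h g fun a ha => ?_)))
    rcases mem_insert.1 ha with ha | ha
    · exact congrArg Subtype.val (Equiv.congr_fun (MonoidHom.mem_ker.1 g.2) ⟨a, ha⟩)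
    · exact hg a ha

open Pointwise in
theorem k_equivariant (H : Subgroup (Perm α)) (ih : ∀ m < Fintype.card α, KB.{u} m) (f : α → Set α)
    (hf : ∀ (g : H) a, f (g • a) = g • f a) {a b c d : α} (hab : a ≠ b) (h1 : f a = f b)
    (h2 : f c ≠ f d) : Nat.card (ConjClasses H) ≤ 2 ^ (Fintype.card α - 1) := by
  let S : SubMulAction H (Set α) := ⟨(univ.image f : Finset (Set α)), fun g B hB => by
    obtain ⟨a, -, rfl⟩ := mem_image.1 (mem_coe.1 hB)
    exact mem_coe.2 (mem_image.2 ⟨g • a, mem_univ _, hf g a⟩)⟩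
  let _ : Fintype S := inferInstanceAs (Fintype (univ.image f : Finset (Set α)))
  have hr : (univ.image f).card < Fintype.card α := lt_of_le_of_ne card_image_le fun h =>
    hab (card_image_iff.1 h (mem_univ a) (mem_univ b) h1)
  have h3 := k_fibres f (univ.image f) (fun i _ => ih _ (card_lt_card
    ((filter_subset _ _).ssubset_of_ne fun h => h2 (((mem_filter.1 (h.symm ▸ mem_univ c)).2).trans
      ((mem_filter.1 (h.symm ▸ mem_univ d)).2).symm)))) (toPermHom H S).ker
    (fun g a => (hf g a).trans (congrArg Subtype.val (Equiv.congr_fun (MonoidHom.mem_ker.1 g.2)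
      ⟨f a, mem_coe.2 (mem_image_of_mem _ (mem_univ a))⟩)))
    (fun g hg => Subtype.ext (Subtype.ext (Equiv.ext fun a =>
      hg a (mem_image_of_mem _ (mem_univ a)))))
  refine (k_le_ker (β := S) (Fintype.card_coe _) (ih _ hr)).trans
    ((Nat.mul_le_mul_right _ h3).trans ?_)
  rw [← pow_add]
  refine Nat.pow_le_pow_right two_pos ?_
  have h4 : ∑ i ∈ univ.image f, ((univ.filter (f · = i)).card - 1 + 1) = Fintype.card α := by
    rw [← card_univ, card_eq_sum_card_image f]
    refine sum_congr rfl fun i hi => Nat.sub_add_cancel (card_pos.2 ?_)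
    obtain ⟨a, -, rfl⟩ := mem_image.1 hi
    exact ⟨a, by simp⟩
  have h5 : 0 < (univ.image f).card := card_pos.2 ⟨f a, mem_image_of_mem _ (mem_univ a)⟩
  rw [sum_add_distrib, sum_const, smul_eq_mul] at h4
  rw [← h4]
  omega

open Pointwise in
theorem k_imprimitive (H : Subgroup (Perm α)) (ih : ∀ m < Fintype.card α, KB.{u} m)
    (h : ¬ IsPreprimitive H α) : Nat.card (ConjClasses H) ≤ 2 ^ (Fintype.card α - 1) := by
  by_cases htr : IsPretransitive H α
  · have : ∃ B : Set α, IsBlock H B ∧ ¬ IsTrivialBlock B := by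
      by_contra h1
      push Not at h1
      exact h ⟨fun hB => h1 _ hB⟩
    obtain ⟨B, hB, h1⟩ := this
    simp only [IsTrivialBlock, not_or, Set.not_subsingleton_iff] at h1
    obtain ⟨⟨a, ha, b, hb, hab⟩, h2⟩ := h1
    obtain ⟨d, hd⟩ := (Set.ne_univ_iff_exists_notMem B).1 h2
    let f : α → Set α := fun x => {y | ∃ g : H, x ∈ g • B ∧ y ∈ g • B}
    have hfB : ∀ x ∈ B, f x = B := fun x hx => Set.ext fun y =>
      ⟨fun ⟨g, h1, h2⟩ => (isBlock_iff_smul_eq_of_nonempty.1 hB ⟨x, h1, hx⟩) ▸ h2,
        fun hy => ⟨1, by simpa using hx, by simpa using hy⟩⟩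
    refine k_equivariant H ih f (fun g x => Set.ext fun y => ?_) hab
      ((hfB a ha).trans (hfB b hb).symm) (c := a) (d := d) fun h => hd ?_
    · rw [Set.mem_smul_set_iff_inv_smul_mem]
      constructor
      · rintro ⟨k, h1, h2⟩
        exact ⟨g⁻¹ * k, by rwa [mul_smul, Set.mem_inv_smul_set_iff], by
          rw [mul_smul]; exact Set.smul_mem_smul_set h2⟩
      · rintro ⟨k, h1, h2⟩
        exact ⟨g * k, by rw [mul_smul]; exact Set.smul_mem_smul_set h1, by
          rwa [mul_smul, Set.mem_smul_set_iff_inv_smul_mem]⟩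
    · obtain ⟨g, hg⟩ := exists_smul_eq H a d
      rw [← hfB a ha, h]
      exact ⟨g, hg ▸ Set.smul_mem_smul_set ha, hg ▸ Set.smul_mem_smul_set ha⟩
  · by_cases h1 : ∀ (g : H) (a : α), g • a = a
    · have : Subsingleton H := ⟨fun x y => Subtype.ext (Equiv.ext fun a =>
        (h1 x a).trans (h1 y a).symm)⟩
      exact ((k_le_card H).trans (Finite.card_le_one_iff_subsingleton.2 this)).trans
        Nat.one_le_two_pow
    · push Not at h1
      obtain ⟨g, a, hg⟩ := h1
      have : ∃ c d : α, ∀ g : H, g • c ≠ d := by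
        by_contra h1
        push Not at h1
        exact htr ⟨h1⟩
      obtain ⟨c, d, hcd⟩ := this
      refine k_equivariant H ih (orbit H) (fun g a => by rw [orbit_smul, smul_orbit]) hg
        (orbit_smul g a) (c := c) (d := d) fun h => ?_
      obtain ⟨g, hg⟩ := h.symm ▸ mem_orbit_self d
      exact hcd g hg

theorem k_perm_le : Nat.card (ConjClasses (Perm α)) ≤ Nat.card (Nat.Partition (Fintype.card α)) :=
  Nat.card_le_card_of_injective (fun C => (rep C).partition) fun C D e => by
    rw [← mk_rep C, ← mk_rep D]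
    exact ConjClasses.mk_eq_mk_iff_isConj.2 (Perm.partition_eq_of_isConj.2 e)

theorem k_top : Nat.card (ConjClasses (⊤ : Subgroup (Perm α))) ≤ 2 ^ (Fintype.card α - 1) := by
  refine (k_le_of_surj Subgroup.topEquiv.symm.toMonoidHom (MulEquiv.surjective _)).trans
    (k_perm_le.trans ((Nat.card_le_card_of_surjective _ Nat.Partition.ofComposition_surj).trans ?_))
  rw [Nat.card_eq_fintype_card, composition_card]

theorem k_alt {H : Subgroup (Perm α)} (h : alternatingGroup α ≤ H) (hn : 5 ≤ Fintype.card α) :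
    Nat.card (ConjClasses H) ≤ 2 ^ (Fintype.card α - 1) := by
  have : Nontrivial α := Fintype.one_lt_card_iff_nontrivial.1 (by omega)
  have h1 : H.index ≤ 2 := Nat.le_of_dvd two_pos
    (alternatingGroup.index_eq_two (α := α) ▸ Subgroup.index_dvd_of_le h)
  refine (Fgs.card_conjClasses_subgroup_le H).trans ((Nat.mul_le_mul h1
    (k_perm_le.trans (Cfsg.Agent.S4198.card_partition_le hn))).trans (le_of_eq ?_))
  rw [← pow_succ']
  congr 1
  omega

theorem card_le_pow {X : Type*} [Group X] [Finite X] {p e N : ℕ} (hp : p.Prime) (hX : IsPGroup p X)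
    (h : Nat.card X ∣ N) (hN : ¬ p ^ (e + 1) ∣ N) : Nat.card X ≤ p ^ e := by
  have := Fact.mk hp
  obtain ⟨j, hj⟩ := hX.exists_card_eq
  rw [hj] at h ⊢
  refine Nat.pow_le_pow_right hp.pos (not_lt.1 fun hlt => hN ((pow_dvd_pow p hlt).trans h))

theorem card_dvd_fac (P : Subgroup (Perm α)) : Nat.card P ∣ (Fintype.card α).factorial := by
  rw [← Nat.card_eq_fintype_card, ← Nat.card_perm]
  exact Subgroup.card_subgroup_dvd_card P

theorem card_le_nocyc {p e : ℕ} (hp : p.Prime) (hn : p ≤ Fintype.card α) {H : Subgroup (Perm α)}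
    (hc : ∀ z ∈ H, z.IsCycle → z.support.card ≠ p)
    (hN : ¬ p ^ (e + 1 + 1) ∣ (Fintype.card α).factorial) :
    ∀ P ≤ H, IsPGroup p P → Nat.card P ≤ p ^ e := fun P hle hP => by
  have := Fact.mk hp
  obtain ⟨Q, hPQ, hQ, h⟩ := exists_over hp hP
  obtain ⟨z, hz⟩ := card_pos.1 (lt_of_lt_of_le (Nat.mul_pos (by have := hp.two_le; omega)
    (Nat.div_pos hn hp.pos)) h)
  simp only [pc, mem_filter, mem_E] at hz
  have h1 := card_le_pow hp hQ (card_dvd_fac Q) hN
  have h2 : Nat.card P < Nat.card Q := lt_of_le_of_ne (Subgroup.card_le_of_le hPQ) fun h =>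
    hc z (hle (Subgroup.eq_of_le_of_card_ge hPQ h.ge ▸ hz.1)) hz.2.1 hz.2.2
  obtain ⟨j, hj⟩ := hP.exists_card_eq
  rw [hj] at h2 ⊢
  exact Nat.pow_le_pow_right hp.pos (Nat.lt_succ_iff.1
    ((Nat.pow_lt_pow_iff_right hp.one_lt).1 (h2.trans_le h1)))

theorem one_mul_le {p : ℕ} (hp : p.Prime) (H : Subgroup (Perm α)) : ∀ y ∈ H, y ≠ 1 →
    IsPGroup p (Subgroup.zpowers y) → 1 * p ≤ y.support.card := fun _ _ h1 hy => by
  rw [one_mul]
  exact Nat.le_of_dvd (card_pos.2 (nonempty_iff_ne_empty.2 (mt Perm.support_eq_empty_iff.1 h1)))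
    (dvd_card_support hp hy)

theorem crude_ih {p : ℕ} (hp : p.Prime) (H : Subgroup (Perm α))
    (ih : ∀ m < Fintype.card α, KB.{u} m) {B : ℕ} (hB : ∀ P ≤ H, IsPGroup p P → Nat.card P ≤ B) :
    (kap H (p + 1) : ℝ) ≤ kap H p + (B - 1) * 2 ^ (Fintype.card α - p) := by
  refine crude hp H (by positivity) hB (one_mul_le hp H) fun m hm β _ K hβ => ?_
  have := hp.two_le
  have h1 := ((kap_le_card p).trans (ih m (by omega) β K hβ)).trans
    (Nat.pow_le_pow_right two_pos (by omega : m - 1 ≤ Fintype.card α - p))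
  exact_mod_cast h1

theorem k_small (H : Subgroup (Perm α)) (ih : ∀ m < Fintype.card α, KB.{u} m)
    (hn : Fintype.card α < 11) (h3 : ∀ z ∈ H, z.IsCycle → z.support.card ≠ 3) {B3 B5 B7 : ℕ}
    (hB3 : ∀ P ≤ H, IsPGroup 3 P → Nat.card P ≤ B3) (hB5 : ∀ P ≤ H, IsPGroup 5 P → Nat.card P ≤ B5)
    (hB7 : ∀ P ≤ H, IsPGroup 7 P → Nat.card P ≤ B7) :
    (Nat.card (ConjClasses H) : ℝ) ≤ c2 ^ Fintype.card α + (B3 - 1) * c2 ^ (Fintype.card α - 4) +
      (B5 - 1) * 2 ^ (Fintype.card α - 5) + (B7 - 1) * 2 ^ (Fintype.card α - 7) := by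
  have e3 := crude Nat.prime_three H (j := 2) (b := c2 ^ (Fintype.card α - 4)) (by positivity) hB3
    (fun y hy h1 hp => by
      have h4 := one_mul_le Nat.prime_three H y hy h1 hp
      have h5 := dvd_card_support Nat.prime_three hp
      have h6 : y.support.card ≠ 3 := fun h =>
        h3 y hy (card_support_eq_three_iff.1 h).isCycle h
      omega)
    fun m hm => (bd3 m).mono (pow_le_pow_right₀ (by norm_num) (by omega))
  have e5 := crude_ih (by norm_num) H ih hB5
  have e7 := crude_ih (by norm_num) H ih hB7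
  have e2 := bd3 _ α H rfl
  rw [show kap H 5 = kap H (3 + 1) from kap_succ (by norm_num)] at e5
  rw [show kap H 7 = kap H (5 + 1) from kap_succ (by norm_num)] at e7
  rw [← kap_big H hn, show kap H 11 = kap H (7 + 1) from (kap_succ (by norm_num)).trans
    ((kap_succ (by norm_num)).trans (kap_succ (by norm_num)))]
  linarith

theorem k_tiny (H : Subgroup (Perm α)) (ih : ∀ m < Fintype.card α, KB.{u} m)
    (hn : Fintype.card α < 5) {B : ℕ} (hB : ∀ P ≤ H, IsPGroup 2 P → Nat.card P ≤ B) :
    (Nat.card (ConjClasses H) : ℝ) ≤ B + 2 * 2 ^ (Fintype.card α - 3) := by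
  have e2 := crude Nat.prime_two H (j := 0) zero_le_one hB (by simp) fun m _ =>
    (bd2 m).mono (one_pow m).le
  have e3 := crude_ih Nat.prime_three H ih (B := 3 ^ 1) fun P _ hP =>
    card_le_pow Nat.prime_three hP (card_dvd_fac P) (by
      generalize Fintype.card α = n at *
      interval_cases n <;> decide)
  have e1 : (kap H 2 : ℝ) ≤ 1 := by exact_mod_cast kap_two
  rw [← kap_big H hn, show kap H 5 = kap H (3 + 1) from kap_succ (by norm_num)]
  norm_num at e2 e3 ⊢
  linarith

theorem kb (n : ℕ) : KB.{u} n := by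
  induction n using Nat.strong_induction_on with
  | _ n ih =>
  intro α _ H hn
  subst hn
  have hd := card_dvd_fac H
  by_cases h2 : Fintype.card α ≤ 2
  · refine (k_le_card H).trans ((Nat.le_of_dvd (Nat.factorial_pos _) hd).trans ?_)
    generalize Fintype.card α = n at *
    interval_cases n <;> decide
  by_cases h3 : Fintype.card α = 3
  · have := k_tiny H ih (by omega) (B := 2 ^ 1) fun P _ hP =>
      card_le_pow Nat.prime_two hP (card_dvd_fac P) (by rw [h3]; decide)
    rw [h3] at this ⊢
    exact_mod_cast this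
  by_cases h4 : Fintype.card α = 4
  · by_cases ht : H = ⊤
    · exact ht ▸ k_top
    by_cases h8 : Nat.card H ≤ 8
    · rw [h4]; exact (k_le_card H).trans h8
    have h24 : Nat.card H ≠ 24 := fun h => ht (Subgroup.eq_top_of_card_eq _ (by
      rw [h, Nat.card_perm, Nat.card_eq_fintype_card, h4]; rfl))
    have h12 : Nat.card H = 12 := by
      rw [h4] at hd
      have := Nat.le_of_dvd (Nat.factorial_pos _) hd
      generalize Nat.card H = k at *
      simp only [Nat.factorial] at this
      interval_cases k <;> first | rfl | omega | exact absurd hd (by decide)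
    have := k_tiny H ih (by omega) (B := 2 ^ 2) fun P hle hP =>
      card_le_pow Nat.prime_two hP (h12 ▸ Subgroup.card_dvd_of_le hle) (by decide)
    rw [h4] at this ⊢
    exact_mod_cast this
  by_cases hp : IsPreprimitive H α
  swap
  · exact k_imprimitive H ih hp
  by_cases hA : alternatingGroup α ≤ H
  · exact k_alt hA (by omega)
  have hc : ∀ p, p.Prime → p + 3 ≤ Fintype.card α → ∀ z ∈ H, z.IsCycle → z.support.card ≠ p :=
    fun p hpp hpn z hz h1 h =>
      hA (Perm.alternatingGroup_le_of_isPreprimitive_of_prime_cycle H hp hpp hpn h1 h hz)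
  by_cases hl : 267 ≤ Fintype.card α
  · exact k_le_large H hl
  by_cases hm : 10 ≤ Fintype.card α
  · exact k_le_mid H hm (by omega) hc
  have h3c : ∀ z ∈ H, z.IsCycle → z.support.card ≠ 3 := fun z hz _ h =>
    hA (Equiv.Perm.alternatingGroup_le_of_isPreprimitive_of_isThreeCycle_mem hp
      (card_support_eq_three_iff.1 h) hz)
  have key := k_small H ih (by omega) h3c (B3 := 3 ^ (Fintype.card α / 3 + Fintype.card α / 9 - 1))
    (B5 := 5 ^ if 8 ≤ Fintype.card α then 0 else 1) (B7 := 7 ^ (Fintype.card α / 7))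
    (card_le_nocyc Nat.prime_three (by omega) h3c (by
      generalize Fintype.card α = n at *
      have : n < 10 := by omega
      have : 4 < n := by omega
      interval_cases n <;> decide))
    (by
      split_ifs with h
      · refine card_le_nocyc (by norm_num) (by omega) (hc 5 (by norm_num) h) ?_
        generalize Fintype.card α = n at *
        have : n < 10 := by omega
        interval_cases n <;> decide
      · refine fun P _ hP => card_le_pow (by norm_num) hP (card_dvd_fac P) ?_
        generalize Fintype.card α = n at *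
        have : n < 10 := by omega
        interval_cases n <;> decide)
    fun P _ hP => card_le_pow (by norm_num) hP (card_dvd_fac P) (by
      generalize Fintype.card α = n at *
      have : n < 10 := by omega
      interval_cases n <;> decide)
  have : (Nat.card (ConjClasses H) : ℝ) ≤ 2 ^ (Fintype.card α - 1) := by
    refine key.trans ?_
    generalize Fintype.card α = n at *
    have : n < 10 := by omega
    have : 4 < n := by omega
    interval_cases n <;> norm_num
  exact_mod_cast this

theorem card_conjClasses_le_two_pow (H : Subgroup (Perm α)) :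
    Nat.card (ConjClasses H) ≤ 2 ^ (Fintype.card α - 1) := kb _ α H rfl

end CfsgLib.KPerm
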