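import Cfsg.Agent.Lib.KPerm.Step

/-! The chain of numerical bounds. -/

set_option autoImplicit false
open Finset MulAction Equiv
open scoped Classical

namespace CfsgLib.KPerm

universe u

local notation "c2" => (14954 / 10000 : ℝ)
local notation "c3" => (18504 / 10000 : ℝ)
local notation "c5" => (19636 / 10000 : ℝ)
local notation "c7" => (19918 / 10000 : ℝ)
local notation "c11" => (19937 / 10000 : ℝ)
local notation "ci" => (19948 / 10000 : ℝ)

theorem Bd.succ {q m : ℕ} {b : ℝ} (hq : ¬ q.Prime) (h : Bd.{u} q m b) : Bd.{u} (q + 1) m b :=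
  fun β _ H hβ => kap_succ (X := H) hq ▸ h β H hβ

theorem class_step {α : Type u} [Fintype α] (H : Subgroup (Perm α)) {p : ℕ} (hp : p.Prime)
    {c a : ℝ} (hb : ∀ m, Bd.{u} p m (c ^ m)) (hc : 1 ≤ c) (hca : c ≤ a) {g : ℕ → ℝ}
    (hg : ∀ n, 0 ≤ g n) (h1 : g 1 = c) (h2 : ∀ n, 2 ≤ n → g n ≤ a ^ n)
    (hm : ∀ k : ℕ, g (p ^ k) ^ p ≤ g (p * p ^ k))
    (hs : ∀ k A : ℕ, A ^ (p - 1) ≤ p ^ (p ^ k - 1) →
      g (p ^ k) ^ p + (p - 1) * A * c ^ (p * p ^ k) + p * (p - 1) * A * c ^ p ^ k ≤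
        p * g (p * p ^ k)) : (kap H (p + 1) : ℝ) ≤
      c ^ (Fintype.card α - p * (Fintype.card α / p)) * a ^ (p * (Fintype.card α / p)) := by
  have := Fact.mk hp
  obtain ⟨P, hP, h⟩ := peel_class H hp hb
  have h3 := As_le hc hg h1.ge hm hs P univ hP (inv_univ P) P le_rfl 1 P.one_mem
  rw [fx_univ, Nat.cast_one, mul_one] at h3
  exact (le_of_mul_le_mul_left (h.trans h3) (by exact_mod_cast card_E_pos P)).trans
    (bnd_univ hp hg hca h1.le h2 hP)

theorem bd2 (m : ℕ) : Bd.{u} 2 m (1 ^ m) := fun _ _ _ _ => by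
  rw [one_pow]; exact_mod_cast kap_two

theorem bd3 (m : ℕ) : Bd.{u} 3 m (c2 ^ m) := fun β _ H hβ => by
  have h4 : ∀ k, 4 ≤ 2 ^ (k + 2) := fun k => by
    rw [pow_add]; exact Nat.le_mul_of_pos_left _ (by positivity)
  refine (class_step H Nat.prime_two bd2 le_rfl (a := c2) (by norm_num)
    (g := fun n => if n = 1 then 1 else if n = 2 then 2 else c2 ^ n)
    (fun n => by split_ifs <;> positivity) rfl (fun n hn => ?_) (fun k => ?_) fun k A hA => ?_).trans
    (hβ ▸ pow_mul_pow_le zero_le_one (by norm_num) _ _)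
  · rw [if_neg (by omega)]
    split_ifs with h
    · rw [h]; norm_num
    · rfl
  · rcases k with _ | _ | k
    · norm_num
    · norm_num
    · have := h4 k
      rw [if_neg (by omega), if_neg (by omega), if_neg (by omega), if_neg (by omega), ← pow_mul,
        mul_comm]
  · rcases k with _ | _ | k
    · have : (A : ℝ) ≤ 1 := by exact_mod_cast (by simpa using hA)
      norm_num; linarith
    · have : (A : ℝ) ≤ 2 := by exact_mod_cast (by simpa using hA)
      norm_num; linarith
    · have := h4 k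
      rw [if_neg (by omega), if_neg (by omega), if_neg (by omega), if_neg (by omega), ← pow_mul,
        mul_comm _ 2]
      generalize 2 ^ (k + 1 + 1) = n at *
      have h5 : (A : ℝ) * 2 ≤ 2 ^ n := by
        rw [← Nat.sub_add_cancel (by omega : 1 ≤ n), pow_succ]
        have : (A : ℝ) ≤ 2 ^ (n - 1) := by exact_mod_cast (by simpa using hA)
        linarith
      have h6 : (2 : ℝ) ^ n * (1118 / 1000) ^ 4 ≤ c2 ^ (2 * n) := by
        rw [pow_mul]
        refine le_trans (mul_le_mul_of_nonneg_left (pow_le_pow_right₀ (by norm_num) this)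
          (by positivity)) ?_
        rw [← mul_pow]
        exact pow_le_pow_left₀ (by norm_num) (by norm_num) n
      have h7 : (0 : ℝ) ≤ A := Nat.cast_nonneg _
      simp only [one_pow, Nat.cast_ofNat]
      norm_num at h6 ⊢
      linarith

theorem kap4_le {α : Type u} [Fintype α] (H : Subgroup (Perm α)) : (kap H 4 : ℝ) ≤
    c2 ^ (Fintype.card α - 3 * (Fintype.card α / 3)) * c3 ^ (3 * (Fintype.card α / 3)) := by
  have h4 : ∀ k, 3 ≤ 3 ^ (k + 1) := fun k => Nat.le_self_pow k.succ_ne_zero 3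
  refine class_step H Nat.prime_three bd3 (by norm_num) (by norm_num)
    (g := fun n => if n = 1 then c2 else c3 ^ n)
    (fun n => by split_ifs <;> positivity) rfl (fun n hn => ?_) (fun k => ?_) fun k A hA => ?_
  · rw [if_neg (by omega)]
  · rcases k with _ | k
    · norm_num
    · have := h4 k
      rw [if_neg (by omega), if_neg (by omega), ← pow_mul, mul_comm]
  · rcases k with _ | k
    · have : (A : ℝ) ≤ 1 := by
        exact_mod_cast (Nat.pow_le_pow_iff_left two_ne_zero).1 (by simpa using hA : A ^ 2 ≤ 1 ^ 2)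
      norm_num; linarith
    · have := h4 k
      rw [if_neg (by omega), if_neg (by omega), ← pow_mul, mul_comm _ 3]
      generalize 3 ^ (k + 1) = n at *
      have h5 : (A : ℝ) * (7 / 4) ≤ (7 / 4) ^ n := by
        rw [← Nat.sub_add_cancel (by omega : 1 ≤ n), pow_succ]
        refine mul_le_mul_of_nonneg_right (le_of_pow_le_pow_left₀ two_ne_zero (by positivity) ?_)
          (by norm_num)
        rw [← pow_mul, mul_comm, pow_mul]
        exact le_trans (by exact_mod_cast hA) (pow_le_pow_left₀ (by norm_num)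
          (by norm_num : (3 : ℝ) ≤ (7 / 4) ^ 2) _)
      have h6 : (7 / 4 : ℝ) ^ n * c2 ^ (3 * n) ≤ c3 ^ (3 * n) := by
        rw [pow_mul, pow_mul, ← mul_pow]
        exact pow_le_pow_left₀ (by norm_num) (by norm_num) n
      have h7 : (7 / 4 : ℝ) ^ n * c2 ^ n ≤ (42 / 100) ^ 3 * c3 ^ (3 * n) := by
        refine le_trans ?_ (mul_le_mul_of_nonneg_right (pow_le_pow_of_le_one (by norm_num)
          (by norm_num) this) (by positivity))
        rw [pow_mul, ← mul_pow, ← mul_pow]
        exact pow_le_pow_left₀ (by norm_num) (by norm_num) n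
      have h8 := mul_le_mul_of_nonneg_right h5 (by positivity : (0 : ℝ) ≤ c2 ^ (3 * n))
      have h9 := mul_le_mul_of_nonneg_right h5 (by positivity : (0 : ℝ) ≤ c2 ^ n)
      have h10 : (0 : ℝ) ≤ c3 ^ (3 * n) := by positivity
      simp only [Nat.cast_ofNat]
      nlinarith

theorem bd5 (m : ℕ) : Bd.{u} 5 m (c3 ^ m) := Bd.succ (by norm_num) fun _ _ H hβ =>
  (kap4_le H).trans (hβ ▸ pow_mul_pow_le (by norm_num) (by norm_num) _ _)

theorem num5 : Num 5 c3 c5 := ⟨by norm_num, by norm_num, 9967 / 10000, c2, 475 / 1000, by norm_num⟩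

theorem num7 : Num 7 c5 c7 := ⟨by norm_num, by norm_num, 99999 / 100000, 14 / 10, 1 / 5, by norm_num⟩

theorem num11 : Num 11 c7 c11 :=
  ⟨by norm_num, by norm_num, 99999 / 100000, 13 / 10, 1 / 5, by norm_num⟩

theorem bd7 (m : ℕ) : Bd.{u} 7 m (c5 ^ m) :=
  Bd.succ (by norm_num) (step_bd (by norm_num) num5 bd5 m)

theorem bd11 (m : ℕ) : Bd.{u} 11 m (c7 ^ m) := Bd.succ (by norm_num) (Bd.succ (by norm_num)
  (Bd.succ (by norm_num) (step_bd (by norm_num) num7 bd7 m)))

theorem bd13 (m : ℕ) : Bd.{u} 13 m (c11 ^ m) :=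
  Bd.succ (by norm_num) (step_bd (by norm_num) num11 bd11 m)

theorem num_big {p : ℕ} (hp : 13 ≤ p) {c a : ℝ} (hc : 199 / 100 ≤ c) (ha : a ≤ 2)
    (hca : c + 2 * (100 / 199) ^ (p - 1) ≤ a) : Num p c a := by
  have h0 : (0 : ℝ) < (100 / 199) ^ (p - 1) := by positivity
  have hη : (0 : ℝ) < (1 / 2) ^ p := by positivity
  have hη1 : (1 / 2 : ℝ) ^ p ≤ 1 / 2 := pow_le_of_le_one (by norm_num) (by norm_num) (by omega)
  have hp' : (13 : ℝ) ≤ p := by exact_mod_cast hp
  refine ⟨by linarith, by linarith, 1 - (1 / 2) ^ p, 5 / 4, 1 / 4, by linarith, by linarith,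
    by norm_num, by norm_num, ?_, ?_, ?_, ?_⟩
  · have h1 := (pow_add_mul_le_add_pow (by linarith : 0 ≤ c)
      (by linarith : 0 ≤ 2 * c + 2 * (100 / 199) ^ (p - 1)) p).trans
      (pow_le_pow_left₀ (by linarith) hca p)
    have h2 : (1 : ℝ) ≤ c ^ (p - 1) * (100 / 199) ^ (p - 1) := by
      rw [← mul_pow]; exact one_le_pow₀ (by linarith)
    have h3 : (1 / 2 : ℝ) ^ p * a ^ p ≤ 1 := by
      rw [← mul_pow]; exact pow_le_one₀ (by linarith) (by linarith)
    nlinarith
  · clear hca h0 hη hη1 hp'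
    induction p, hp using Nat.le_induction with
    | base => norm_num
    | succ p hp ih =>
      have hp' : (13 : ℝ) ≤ p := by exact_mod_cast hp
      rw [Nat.add_sub_cancel, ← Nat.sub_add_cancel (by omega : 1 ≤ p), pow_succ,
        Nat.sub_add_cancel (by omega : 1 ≤ p)]
      push_cast
      linarith
  · have h1 : (5 / 4 : ℝ) ^ p * (3 / 2) ^ 6 ≤ a ^ p := by
      refine le_trans (mul_le_mul_of_nonneg_left (pow_le_pow_right₀ (by norm_num)
        (by omega : 6 ≤ p)) (by positivity)) ?_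
      rw [← mul_pow]
      exact pow_le_pow_left₀ (by norm_num) (by linarith) p
    have h2 : (0 : ℝ) < (5 / 4) ^ p := by positivity
    nlinarith
  · have h1 : (1 - (1 / 2 : ℝ) ^ p) ^ p ≤ (1 - (1 / 2 : ℝ) ^ p) ^ 2 :=
      pow_le_pow_of_le_one (by linarith) (by linarith) (by omega)
    have h2 : (1 / 4 : ℝ) ^ p = (1 / 2) ^ p * (1 / 2) ^ p := by rw [← mul_pow]; norm_num
    rw [h2]
    generalize (1 / 2 : ℝ) ^ p = η at *
    have h3 : η * η ≤ 1 - η - (1 - η) ^ p := by nlinarith
    nlinarith [mul_pos hη hη]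

/-- The constants for the large primes. -/
noncomputable def cc (q : ℕ) : ℝ := ci - 8001 / 1000 * (100 / 199) ^ q

theorem cc_le (q : ℕ) : cc q ≤ ci := sub_le_self _ (by positivity)

theorem le_cc {q : ℕ} (hq : 13 ≤ q) : c11 ≤ cc q := by
  have : (100 / 199 : ℝ) ^ q ≤ (100 / 199) ^ 13 :=
    pow_le_pow_of_le_one (by norm_num) (by norm_num) hq
  rw [cc]
  norm_num at this ⊢
  linarith

theorem cc_succ {q : ℕ} (hq : 13 ≤ q) : cc q + 2 * (100 / 199) ^ (q - 1) ≤ cc (q + 1) := by
  obtain ⟨q, rfl⟩ := Nat.exists_eq_add_of_le' (by omega : 1 ≤ q)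
  have : (0 : ℝ) < (100 / 199) ^ q := by positivity
  simp only [cc, Nat.add_sub_cancel, pow_succ]
  linarith

theorem chain {q : ℕ} (hq : 13 ≤ q) : (∀ m, Bd.{u} q m (cc q ^ m)) ∧
    ∀ (α : Type u) [Fintype α] (H : Subgroup (Perm α)),
      kap H q + cc 13 ^ Fintype.card α ≤ kap H 13 + cc q ^ Fintype.card α := by
  induction q, hq using Nat.le_induction with
  | base => exact ⟨fun m => (bd13 m).mono (pow_le_pow_left₀ (by norm_num) (le_cc le_rfl) m),
      fun _ _ _ => le_rfl⟩
  | succ q hq ih =>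
    have h1 := le_cc hq
    have h2 := cc_succ hq
    have h3 : cc q ≤ cc (q + 1) := le_trans (le_add_of_nonneg_right (by positivity)) h2
    have h4 := fun m => pow_le_pow_left₀ (by linarith) h3 m
    by_cases hp : q.Prime
    · have h := num_big hq (by linarith) (by linarith [cc_le (q + 1)]) h2
      refine ⟨step_bd hp h ih.1, fun α _ H => ?_⟩
      have h5 := step hp h ih.1 H 0 (Or.inl rfl)
      have h6 := pow_mul_pow_le (by linarith) h3 (Fintype.card α) q
      have h7 := ih.2 α H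
      simp only [Nat.cast_zero, zero_mul] at h5
      linarith
    · refine ⟨fun m => ((ih.1 m).succ hp).mono (h4 m), fun α _ H => ?_⟩
      rw [kap_succ hp]
      linarith [ih.2 α H, h4 (Fintype.card α)]

variable {α : Type u} [Fintype α]

theorem kap_big (H : Subgroup (Perm α)) {q : ℕ} (hq : Fintype.card α < q) :
    kap H q = Nat.card (ConjClasses H) := kap_eq_card fun r hr hd => by
  have := hd.trans (Subgroup.card_subgroup_dvd_card H)
  rw [Nat.card_perm, Nat.card_eq_fintype_card, hr.dvd_factorial] at this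
  omega

theorem k_le_ci (H : Subgroup (Perm α)) : (Nat.card (ConjClasses H) : ℝ) ≤ ci ^ Fintype.card α := by
  have hq : 13 ≤ Fintype.card α + 13 := by omega
  rw [← kap_big H (q := Fintype.card α + 13) (by omega)]
  exact ((chain hq).1 _ α H rfl).trans (pow_le_pow_left₀ (by linarith [le_cc hq]) (cc_le _) _)

theorem k_le_large (H : Subgroup (Perm α)) (hn : 267 ≤ Fintype.card α) :
    Nat.card (ConjClasses H) ≤ 2 ^ (Fintype.card α - 1) := by
  have h := k_le_ci H
  obtain ⟨d, hd⟩ := Nat.exists_eq_add_of_le hn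
  have h1 : ci ^ 267 ≤ 2 ^ 266 := by
    have : (19948 / 10000 : ℚ) ^ 267 ≤ 2 ^ 266 := by decide +kernel
    simpa only [Rat.cast_pow, Rat.cast_div, Rat.cast_ofNat] using (Rat.cast_le (K := ℝ)).2 this
  rw [hd, pow_add] at h
  rw [hd, show 267 + d - 1 = 266 + d by omega, pow_add]
  exact_mod_cast h.trans (mul_le_mul h1 (pow_le_pow_left₀ (by norm_num) (by norm_num : ci ≤ 2) d)
    (by positivity) (by positivity))

theorem mid_num : ∀ n < 267, 10 ≤ n →
    (14954 / 10000 : ℚ) ^ (n - 3 * (n / 3)) * (18504 / 10000) ^ (3 * (n / 3)) +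
    (18504 / 10000) ^ (n - 5 * (n / 5)) * (19636 / 10000) ^ (5 * (n / 5)) +
    (19636 / 10000) ^ (n - 7 * (n / 7)) * (19918 / 10000) ^ (7 * (n / 7)) +
    (19918 / 10000) ^ (n - 11 * (n / 11)) * (19937 / 10000) ^ (11 * (n / 11)) +
    (19948 / 10000) ^ n ≤ 2 ^ (n - 1) + (18504 / 10000) ^ n + (19636 / 10000) ^ n +
    (19918 / 10000) ^ n + (19937 / 10000) ^ n +
    ((5 - 1) * (n / 5) : ℕ) * (18504 / 10000) ^ (n - 5 + 1) +
    ((7 - 1) * (n / 7) : ℕ) * (19636 / 10000) ^ (n - 7 + 1) +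
    (if 14 ≤ n then (11 - 1) * (n / 11) else 0 : ℕ) * (19918 / 10000) ^ (n - 11 + 1) := by
  decide +kernel

theorem k_le_mid (H : Subgroup (Perm α)) (hn : 10 ≤ Fintype.card α) (hn' : Fintype.card α < 267)
    (hc : ∀ p, p.Prime → p + 3 ≤ Fintype.card α → ∀ z ∈ H, z.IsCycle → z.support.card ≠ p) :
    Nat.card (ConjClasses H) ≤ 2 ^ (Fintype.card α - 1) := by
  have hq : 13 ≤ Fintype.card α + 13 := by omega
  have h1 := (chain hq).2 α H
  rw [kap_big H (by omega)] at h1
  have h2 := pow_le_pow_left₀ (by linarith [le_cc hq]) (cc_le (Fintype.card α + 13)) (Fintype.card α)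
  have h3 := pow_le_pow_left₀ (by norm_num) (le_cc le_rfl) (Fintype.card α)
  have h4 := kap4_le H
  have h5 := step (by norm_num) num5 bd5 H _ (Or.inr ⟨rfl, hc 5 (by norm_num) (by omega)⟩)
  have h7 := step (by norm_num) num7 bd7 H _ (Or.inr ⟨rfl, hc 7 (by norm_num) (by omega)⟩)
  have h11 := step (by norm_num) num11 bd11 H
    (if 14 ≤ Fintype.card α then (11 - 1) * (Fintype.card α / 11) else 0) (by
      split_ifs with h
      exacts [Or.inr ⟨rfl, hc 11 (by norm_num) h⟩, Or.inl rfl])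
  have e5 : kap H 5 = kap H 4 := kap_succ (by norm_num)
  have e7 : kap H 7 = kap H (5 + 1) := kap_succ (by norm_num)
  have e11 : kap H 11 = kap H (7 + 1) := (kap_succ (by norm_num)).trans
    ((kap_succ (by norm_num)).trans (kap_succ (by norm_num)))
  have e13 : kap H 13 = kap H (11 + 1) := kap_succ (by norm_num)
  have h := (Rat.cast_le (K := ℝ)).2 (mid_num _ hn' hn)
  simp only [Rat.cast_add, Rat.cast_mul, Rat.cast_pow, Rat.cast_div, Rat.cast_ofNat,
    Rat.cast_natCast] at h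
  rw [e5] at h5; rw [e7] at h7; rw [e11] at h11; rw [e13] at h1
  have : (Nat.card (ConjClasses H) : ℝ) ≤ 2 ^ (Fintype.card α - 1) := by linarith
  exact_mod_cast this

end CfsgLib.KPerm
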