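import Cfsg.Agent.Lib.KPerm.Peel

/-! One peeling step for permutation groups. -/

set_option autoImplicit false
open Finset MulAction Equiv
open scoped Classical

namespace CfsgLib.KPerm

universe u

variable {α : Type u} [Fintype α]

theorem fx_univ (N : Subgroup (Perm α)) : (E (N ⊓ fx (Perm α) (univ : Finset α))).card = 1 := by
  rw [card_E, Subgroup.card_eq_one]
  exact eq_bot_iff.2 fun g hg => Equiv.ext fun a => mem_fx.1 hg.2 a (mem_univ a)

theorem inv_univ (P : Subgroup (Perm α)) : Inv P (univ : Finset α) := fun _ _ _ _ => mem_univ _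

theorem exists_P (H : Subgroup (Perm α)) {p : ℕ} (hp : p.Prime) :
    ∃ (P : Subgroup (Perm α)) (hle : P ≤ H), IsPGroup p P ∧ kap H (p + 1) ≤
      ∑ L : ConjClasses P, kap (Subgroup.centralizer {Subgroup.inclusion hle (rep L)}) p := by
  have := Fact.mk hp
  obtain ⟨S⟩ : Nonempty (Sylow p H) := inferInstance
  refine ⟨(S : Subgroup H).map H.subtype, Subgroup.map_subtype_le _, S.2.map _,
    kap_le_sum hp _ fun y ⟨k, hk⟩ => ?_⟩
  obtain ⟨g, hg⟩ := Invol.exists_conj_mem_sylow_of_isPGroup S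
    (Invol.isPGroup_zpowers_of_pow_eq_one (hk ▸ pow_orderOf_eq_one y))
  exact ⟨g, ⟨_, _, hg y (Subgroup.mem_zpowers y), rfl⟩, rfl⟩

theorem kap_cent_le {H P : Subgroup (Perm α)} (hle : P ≤ H) {p : ℕ} (hp : p.Prime)
    (hP : IsPGroup p P) (y : P) {b : ℝ} (hb : Bd.{u} p (cyc (univ : Finset α) (y : Perm α)) b) :
    (kap (Subgroup.centralizer {Subgroup.inclusion hle y}) p : ℝ) ≤ b := by
  obtain ⟨k, hk⟩ := hP y
  refine kap_centralizer_le (α := α) (k := k) hp le_rfl (by rw [← map_pow, hk, map_one]) ?_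
  rwa [cyc_coe]

theorem peel_class (H : Subgroup (Perm α)) {p : ℕ} (hp : p.Prime) {c : ℝ}
    (hb : ∀ m, Bd.{u} p m (c ^ m)) : ∃ P : Subgroup (Perm α), IsPGroup p P ∧
      (E P).card * (kap H (p + 1) : ℝ) ≤ As c (univ : Finset α) P 1 := by
  obtain ⟨P, hle, hP, h⟩ := exists_P H hp
  refine ⟨P, hP, ?_⟩
  have h1 : (kap H (p + 1) : ℝ) ≤ ∑ L : ConjClasses P, c ^ cyc (univ : Finset α) ((rep L : P) : Perm α) := by
    refine (Nat.cast_le.2 h).trans ?_
    rw [Nat.cast_sum]
    exact sum_le_sum fun L _ => kap_cent_le hle hp hP _ (hb _)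
  refine (mul_le_mul_of_nonneg_left h1 (Nat.cast_nonneg _)).trans (le_of_eq ?_)
  rw [card_E, card_mul_sum_rep (fun x : P => c ^ cyc (univ : Finset α) (x : Perm α))
    (fun g x => by simp only [Subgroup.coe_mul, Subgroup.coe_inv, cyc_conj]), As,
    sum_subtype (E P) (fun _ => mem_E)]
  refine sum_congr rfl fun x _ => ?_
  rw [one_mul, Fgs.kcl_card_centralizer_subgroup, Fgs.kcl_card_inf_centralizer, E, filter_filter]
  congr 3
  ext g
  simp [cm, Equiv.ext_iff]

theorem peel_elt (H : Subgroup (Perm α)) {p : ℕ} (hp : p.Prime) :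
    ∃ P ≤ H, IsPGroup p P ∧ ∀ w : Perm α → ℝ, (∀ y, 0 ≤ w y) →
      (∀ y ∈ P, y ≠ 1 → Bd.{u} p (cyc (univ : Finset α) y) (w y)) →
      (kap H (p + 1) : ℝ) ≤ kap H p + ∑ y ∈ (E P).erase 1, w y := by
  obtain ⟨P, hle, hP, h⟩ := exists_P H hp
  refine ⟨P, hle, hP, fun w hw hb => ?_⟩
  let v : Perm α → ℝ := fun y => if y = 1 then kap H p else w y
  have h1 : (kap H (p + 1) : ℝ) ≤ ∑ L : ConjClasses P, v (rep L : P) := by
    refine (Nat.cast_le.2 h).trans ?_
    rw [Nat.cast_sum]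
    refine sum_le_sum fun L _ => ?_
    by_cases h1 : ((rep L : P) : Perm α) = 1
    · simp only [v, if_pos h1]
      refine Nat.cast_le.2 (kap_le_of_surj hp le_rfl (Subgroup.subtype _) (fun x => ⟨⟨x, ?_⟩, rfl⟩)
        (by rw [Subgroup.ker_subtype]; exact IsPGroup.of_bot))
      rw [Subgroup.mem_centralizer_singleton_iff, (Subtype.ext h1 : Subgroup.inclusion hle _ = 1)]
      simp
    · simp only [v, if_neg h1]
      exact kap_cent_le hle hp hP _ (hb _ (rep L).2 h1)
  refine h1.trans ?_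
  rw [← sum_image (s := univ) (g := fun L : ConjClasses P => ((rep L : P) : Perm α)) (f := v)
    fun L _ L' _ h => by rw [← mk_rep L, ← mk_rep L', Subtype.ext h]]
  refine (sum_le_sum_of_subset_of_nonneg (t := E P) (fun y hy => ?_) fun y _ _ => ?_).trans ?_
  · obtain ⟨L, -, rfl⟩ := mem_image.1 hy
    exact mem_E.2 (rep L).2
  · simp only [v]; split_ifs; exacts [Nat.cast_nonneg _, hw y]
  · rw [← add_sum_erase _ _ (mem_E.2 P.one_mem)]
    refine le_of_eq (congrArg₂ _ (if_pos rfl) (sum_congr rfl fun y hy => if_neg (mem_erase.1 hy).1))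

theorem bnd_univ {p : ℕ} (hp : p.Prime) {g : ℕ → ℝ} (hg : ∀ n, 0 ≤ g n) {c a : ℝ} (hca : c ≤ a)
    (h1 : g 1 ≤ c) (h2 : ∀ n, 2 ≤ n → g n ≤ a ^ n) {P : Subgroup (Perm α)} (hP : IsPGroup p P) :
    bnd g P (univ : Finset α) ≤ c ^ (Fintype.card α - p * (Fintype.card α / p)) *
      a ^ (p * (Fintype.card α / p)) := by
  have := Fact.mk hp
  have hc : 0 ≤ c := (hg 1).trans h1
  refine (bnd_le hg (hc.trans hca) h1 h2 P _).trans ?_
  have h3 := card_filter_add_card_filter_not (s := (univ : Finset α))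
    fun b => (orb P b).card = 1
  have h4 := hP.card_modEq_card_fixedPoints α
  have h5 : Nat.card (fixedPoints P α) = (univ.filter fun b : α => (orb P b).card = 1).card := by
    rw [Nat.card_eq_fintype_card, Fintype.card_subtype]
    refine congrArg _ (filter_congr fun b _ => ⟨fun h => ?_, fun h g => ?_⟩)
    · refine card_eq_one.2 ⟨b, eq_singleton_iff_unique_mem.2 ⟨self_mem_orb _ _, fun a ha => ?_⟩⟩
      obtain ⟨k, hk, rfl⟩ := mem_orb.1 ha
      exact h ⟨k, hk⟩
    · exact card_le_one.1 h.le _ (mem_orb.2 ⟨g, g.2, rfl⟩) _ (self_mem_orb P b)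
  rw [h5, Nat.card_eq_fintype_card] at h4
  rw [card_univ] at h3
  generalize (univ.filter fun b : α => (orb P b).card = 1).card = f at *
  generalize (univ.filter fun b : α => ¬ (orb P b).card = 1).card = j at *
  generalize Fintype.card α = n at *
  obtain ⟨i, hi⟩ : p ∣ j := by
    have := (Nat.modEq_iff_dvd' (by omega : f ≤ n)).1 h4.symm
    rwa [← h3, Nat.add_sub_cancel_left] at this
  have h6 : j ≤ p * (n / p) := hi ▸ Nat.mul_le_mul_left _
    ((Nat.le_div_iff_mul_le hp.pos).2 (by rw [mul_comm]; omega))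
  have h7 := Nat.mul_div_le n p
  obtain ⟨d, hd⟩ := Nat.exists_eq_add_of_le h6
  rw [show f = n - p * (n / p) + d by omega, hd, pow_add, pow_add, mul_assoc, mul_comm (a ^ j)]
  exact mul_le_mul_of_nonneg_left (mul_le_mul_of_nonneg_right (pow_le_pow_left₀ hc hca d)
    (pow_nonneg (hc.trans hca) _)) (pow_nonneg hc _)

theorem pow_mul_pow_le {c a : ℝ} (hc : 0 ≤ c) (hca : c ≤ a) (n p : ℕ) :
    c ^ (n - p * (n / p)) * a ^ (p * (n / p)) ≤ a ^ n := by
  conv_rhs => rw [← Nat.sub_add_cancel (Nat.mul_div_le n p), pow_add]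
  exact mul_le_mul_of_nonneg_right (pow_le_pow_left₀ hc hca _) (pow_nonneg (hc.trans hca) _)

/-- Numerical hypotheses of the element sum step. -/
def Num (p : ℕ) (c a : ℝ) : Prop := 1 ≤ c ∧ c ≤ a ∧ ∃ θ ρ σ : ℝ, 0 ≤ θ ∧ θ ≤ 1 ∧ 1 ≤ ρ ∧ σ ≤ 1 ∧
  c ^ p + (p - 1) * c ≤ θ * a ^ p ∧ p ≤ ρ ^ (p - 1) ∧ ρ ^ p * c ≤ σ * a ^ p ∧
  (p - 1) * σ ^ p ≤ p * ρ * (θ - θ ^ p)

theorem W_le {p : ℕ} (hp : p.Prime) {c a : ℝ} (h : Num p c a) {Q : Subgroup (Perm α)}
    (hQ : IsPGroup p Q) : ∑ y ∈ E Q, c ^ cyc (univ : Finset α) y ≤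
      c ^ (Fintype.card α - p * (Fintype.card α / p)) * a ^ (p * (Fintype.card α / p)) := by
  have := Fact.mk hp
  obtain ⟨hc, hca, θ, ρ, σ, h0, h1, hρ, hσ, e1, e2, e3, e4⟩ := h
  have ha : 0 < a := by linarith
  have hp2 : (2 : ℝ) ≤ p := by exact_mod_cast hp.two_le
  let g : ℕ → ℝ := fun n => if n = 1 then c else θ * a ^ n
  have hg : ∀ n, 0 ≤ g n := fun n => by simp only [g]; split_ifs <;> positivity
  have hne : ∀ k, p * p ^ k ≠ 1 := fun k h => hp.ne_one (Nat.eq_one_of_mul_eq_one_right h)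
  have := Ws_le (p := p) hc hg (by simp [g]) ?_ Q univ hQ (inv_univ Q) Q le_rfl 1 Q.one_mem
  · rw [fx_univ, Nat.cast_one, one_mul] at this
    refine le_trans (by simpa [Ws] using this) (bnd_univ hp hg hca (by simp [g]) (fun n hn => ?_) hQ)
    simp only [g, if_neg (by omega : n ≠ 1)]
    exact mul_le_of_le_one_left (by positivity) h1
  intro k A hA
  have hp1 : p - 1 ≠ 0 := by have := hp.two_le; omega
  simp only [g, if_neg (hne k)]
  rcases k with _ | k
  · simp only [pow_zero, mul_one, if_true, pow_one] at hA ⊢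
    have h2 : (A : ℝ) ≤ 1 := by
      have := (Nat.pow_le_pow_iff_left hp1).1 hA
      exact_mod_cast Nat.le_of_mul_le_mul_left (by simpa using this) hp.pos
    nlinarith [mul_nonneg (by linarith : (0 : ℝ) ≤ p - 1) (by linarith : 0 ≤ c)]
  · rw [if_neg (pow_succ' p k ▸ hne k)]
    have hm : p ≤ p ^ (k + 1) := Nat.le_self_pow k.succ_ne_zero p
    generalize p ^ (k + 1) = m at *
    have hpm : 0 < p * m := Nat.mul_pos hp.pos (hp.pos.trans_le hm)
    have h2 : (p * A : ℝ) * ρ ≤ (ρ ^ p) ^ m := by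
      have h3 : ((p * A : ℝ)) ^ (p - 1) ≤ (ρ ^ (p * m - 1)) ^ (p - 1) := by
        rw [← pow_mul, mul_comm (p * m - 1), pow_mul]
        exact le_trans (by exact_mod_cast hA) (pow_le_pow_left₀ (by positivity) e2 _)
      have h4 := le_of_pow_le_pow_left₀ hp1 (by positivity) h3
      rw [← pow_mul, ← Nat.sub_add_cancel hpm, pow_succ]
      exact mul_le_mul_of_nonneg_right h4 (by linarith)
    have hσ0 : 0 ≤ σ := by
      by_contra h
      nlinarith [pow_pos ha p, mul_pos (pow_pos (by linarith : 0 < ρ) p) (by linarith : 0 < c)]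
    have h3 : (ρ ^ p) ^ m * c ^ m ≤ σ ^ p * a ^ (p * m) := by
      rw [← mul_pow, pow_mul]
      refine (pow_le_pow_left₀ (by positivity) e3 m).trans ?_
      rw [mul_pow]
      exact mul_le_mul_of_nonneg_right (pow_le_pow_of_le_one hσ0 hσ hm) (by positivity)
    have h4 : (p - 1 : ℝ) * A * c ^ m ≤ (θ - θ ^ p) * a ^ (p * m) := by
      refine le_of_mul_le_mul_left (a := p * ρ) ?_ (by positivity)
      have h5 := mul_le_mul_of_nonneg_left ((mul_le_mul_of_nonneg_right h2
        (by positivity : 0 ≤ c ^ m)).trans h3) (by linarith : (0 : ℝ) ≤ p - 1)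
      have h6 := mul_le_mul_of_nonneg_right e4 (by positivity : 0 ≤ a ^ (p * m))
      nlinarith
    rw [mul_pow, ← pow_mul, mul_comm m p]
    linarith

theorem le_cyc (y : Perm α) {a : α} (ha : y a ≠ a) :
    Fintype.card α - y.support.card + 1 ≤ cyc (univ : Finset α) y := by
  have h1 : ∀ b ∈ y.supportᶜ, orb (Subgroup.zpowers y) b = {b} := fun b hb => by
    refine eq_singleton_iff_unique_mem.2 ⟨self_mem_orb _ _, fun c hc => ?_⟩
    obtain ⟨k, rfl⟩ := mem_orb_zpowers.1 hc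
    exact Perm.pow_apply_eq_self_of_apply_eq_self (by simpa using hb) k
  rw [← card_compl, ← card_image_of_injective y.supportᶜ singleton_injective,
    ← card_insert_of_notMem (a := orb (Subgroup.zpowers y) a)]
  · refine card_le_card (insert_subset (mem_image_of_mem _ (mem_univ a)) fun B hB => ?_)
    obtain ⟨b, hb, rfl⟩ := mem_image.1 hB
    exact mem_image.2 ⟨b, mem_univ b, h1 b hb⟩
  · intro h
    obtain ⟨b, hb, h⟩ := mem_image.1 h
    have := self_mem_orb (Subgroup.zpowers y) a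
    rw [← h, mem_singleton] at this
    exact ha (by simpa [this] using hb)

theorem cyc_one : cyc (univ : Finset α) (1 : Perm α) = Fintype.card α := by
  refine card_image_of_injective _ fun a b h => ?_
  have := self_mem_orb (Subgroup.zpowers (1 : Perm α)) a
  rw [h] at this
  obtain ⟨k, hk⟩ := mem_orb_zpowers.1 this
  simpa using hk.symm

theorem cyc_add_le {p : ℕ} (hp : p.Prime) {y : Perm α} (hy : IsPGroup p (Subgroup.zpowers y))
    {j : ℕ} (hj : j * p ≤ y.support.card) :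
    cyc (univ : Finset α) y + j * (p - 1) ≤ Fintype.card α := by
  have := Fact.mk hp
  have h1 := cyc_union_le y.support y.supportᶜ y
  have h2 := cyc_le y.supportᶜ y
  have h3 := mul_cyc_le (Δ := y.support) hy (fun g hg a ha => by
    obtain ⟨k, rfl⟩ := hg
    exact Perm.zpow_apply_mem_support.2 ha) fun a ha => Perm.mem_support.1 ha
  have h4 := card_add_card_compl y.support
  rw [union_compl] at h1
  obtain ⟨q, rfl⟩ := Nat.exists_eq_add_of_le' hp.pos
  refine Nat.le_of_mul_le_mul_left ?_ hp.pos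
  rw [Nat.add_sub_cancel]
  nlinarith

theorem dvd_card_support {p : ℕ} (hp : p.Prime) {y : Perm α}
    (hy : IsPGroup p (Subgroup.zpowers y)) : p ∣ y.support.card := by
  have := Fact.mk hp
  obtain ⟨j, hj⟩ := hy.exists_card_eq
  rw [Nat.card_zpowers] at hj
  rw [← Perm.sum_cycleType]
  refine Multiset.dvd_sum fun k hk => ?_
  obtain ⟨i, -, rfl⟩ := (Nat.dvd_prime_pow hp).1 (hj ▸ Perm.dvd_of_mem_cycleType hk)
  exact dvd_pow_self p fun h => by simpa [h] using Perm.two_le_of_mem_cycleType hk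

/-- The `p`-cycles in `R`. -/
noncomputable def pc (p : ℕ) (R : Subgroup (Perm α)) : Finset (Perm α) :=
  (E R).filter fun z => z.IsCycle ∧ z.support.card = p

theorem exists_many {p : ℕ} (hp : p.Prime) (m : ℕ) (hm : p * m ≤ Fintype.card α) :
    ∃ (R : Subgroup (Perm α)) (S : Finset α), IsPGroup p R ∧ S.card = p * m ∧
      R ≤ fx (Perm α) Sᶜ ∧ (p - 1) * m ≤ (pc p R).card := by
  have := Fact.mk hp
  induction m with
  | zero => exact ⟨⊥, ∅, IsPGroup.of_bot, by simp, bot_le, by simp⟩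
  | succ m ih =>
    obtain ⟨R, S, hR, hS, hRS, hc⟩ := ih (le_trans (Nat.mul_le_mul_left _ m.le_succ) hm)
    obtain ⟨T, hT, hTc⟩ := exists_subset_card_eq (s := Sᶜ) (n := p) (by
      rw [card_compl, hS]; rw [mul_add] at hm; omega)
    set z := T.toList.formPerm
    have hz : z.IsCycle := List.isCycle_formPerm T.nodup_toList (by simpa [hTc] using hp.two_le)
    have hs : z.support = T := by
      rw [List.support_formPerm_of_nodup _ T.nodup_toList, toList_toFinset]
      intro x h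
      have := congrArg List.length h
      exact hp.ne_one (by simpa [hTc] using this)
    have ho : orderOf z = p := by rw [hz.orderOf, hs, hTc]
    have hRS' : ∀ r ∈ R, r.support ⊆ S := fun r hr a ha => by
      by_contra h
      exact Perm.mem_support.1 ha (mem_fx.1 (hRS hr) a (mem_compl.2 h))
    have hd : Disjoint S T := disjoint_left.2 fun a ha h => mem_compl.1 (hT h) ha
    refine ⟨R ⊔ Subgroup.zpowers z, S ∪ T, hR.to_sup_of_normal_right'
      (IsPGroup.of_card (n := 1) (by rw [Nat.card_zpowers, ho, pow_one]))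
      (le_trans (fun r hr => ?_) (Subgroup.centralizer_le_normalizer _)),
      by rw [card_union_of_disjoint hd, hS, hTc, mul_add, mul_one],
      sup_le (fun r hr => mem_fx.2 fun a ha => mem_fx.1 (hRS hr) a ?_)
        (Subgroup.zpowers_le.2 (mem_fx.2 fun a ha => ?_)), ?_⟩
    · rintro _ ⟨k, rfl⟩
      exact ((Perm.disjoint_iff_disjoint_support.2
        (hs ▸ hd.mono_left (hRS' r hr))).commute.zpow_right k).symm.eq
    · simp only [mem_compl, mem_union, not_or] at ha ⊢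
      exact ha.1
    · simp only [mem_compl, mem_union, not_or] at ha
      exact Perm.notMem_support.1 (hs ▸ ha.2)
    · have h1 : ∀ i ∈ Ico 1 p, (z ^ i).support = T := fun i hi => by
        rw [hz.support_pow_of_pos_of_lt_orderOf (mem_Ico.1 hi).1 (ho ▸ (mem_Ico.1 hi).2), hs]
      have h2 : ((Ico 1 p).image (z ^ ·)).card = p - 1 := by
        rw [card_image_of_injOn fun i hi j hj h => pow_injOn_Iio_orderOf
          (ho ▸ (mem_Ico.1 hi).2) (ho ▸ (mem_Ico.1 hj).2) h, Nat.card_Ico]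
      have h3 : Disjoint (pc p R) ((Ico 1 p).image (z ^ ·)) := disjoint_left.2 fun r hr h => by
        obtain ⟨i, hi, rfl⟩ := mem_image.1 h
        obtain ⟨a, ha⟩ := card_pos.1 (hTc ▸ hp.pos)
        exact disjoint_left.1 hd (hRS' _ (mem_E.1 (mem_filter.1 hr).1) (h1 i hi ▸ ha)) ha
      rw [mul_add, mul_one]
      refine le_trans (Nat.add_le_add hc h2.ge) ?_
      rw [← card_union_of_disjoint h3]
      refine card_le_card (union_subset (fun r hr => ?_) fun r hr => ?_)
      · simp only [pc, mem_filter, mem_E] at hr ⊢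
        exact ⟨Subgroup.mem_sup_left hr.1, hr.2⟩
      · obtain ⟨i, hi, rfl⟩ := mem_image.1 hr
        simp only [pc, mem_filter, mem_E]
        exact ⟨Subgroup.mem_sup_right (Subgroup.npow_mem_zpowers z i),
          hz.isCycle_pow_pos_of_lt_prime_order (ho ▸ hp) i (mem_Ico.1 hi).1
            (ho ▸ (mem_Ico.1 hi).2), by rw [h1 i hi, hTc]⟩

theorem exists_over {p : ℕ} (hp : p.Prime) {P : Subgroup (Perm α)} (hP : IsPGroup p P) :
    ∃ Q, P ≤ Q ∧ IsPGroup p Q ∧ (p - 1) * (Fintype.card α / p) ≤ (pc p Q).card := by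
  have := Fact.mk hp
  obtain ⟨Q, hQ⟩ := hP.exists_le_sylow
  obtain ⟨R, -, hR, -, -, hc⟩ := exists_many (α := α) hp _ (Nat.mul_div_le _ p)
  obtain ⟨g, hg⟩ := Invol.exists_conj_mem_sylow_of_isPGroup Q hR
  refine ⟨Q, hQ, Q.2, hc.trans (card_le_card_of_injOn (fun x => g * x * g⁻¹) (fun x hx => ?_)
    fun _ _ _ _ h => by simpa using h)⟩
  simp only [pc, coe_filter, mem_E, Set.mem_ofPred_eq] at hx ⊢
  exact ⟨hg x hx.1, hx.2.1.conj, by rw [Perm.card_support_conj, hx.2.2]⟩

theorem step {p : ℕ} (hp : p.Prime) {c a : ℝ} (h : Num p c a) (hb : ∀ m, Bd.{u} p m (c ^ m))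
    (H : Subgroup (Perm α)) (d : ℕ) (hd : d = 0 ∨ d = (p - 1) * (Fintype.card α / p) ∧
      ∀ z ∈ H, z.IsCycle → z.support.card ≠ p) :
    kap H (p + 1) + c ^ Fintype.card α + d * c ^ (Fintype.card α - p + 1) ≤ kap H p +
      c ^ (Fintype.card α - p * (Fintype.card α / p)) * a ^ (p * (Fintype.card α / p)) := by
  obtain ⟨P, hle, hP, h1⟩ := peel_elt H hp
  have hc := h.1
  have h2 := h1 (fun y => c ^ cyc univ y) (fun _ => by positivity) fun _ _ _ => hb _
  obtain ⟨Q, hPQ, hQ, h3⟩ := exists_over hp hP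
  have h4 := W_le hp h hQ
  obtain ⟨Z, hZ, hZd, hZP⟩ : ∃ Z ⊆ pc p Q, d ≤ Z.card ∧ Disjoint (E P) Z := by
    rcases hd with rfl | ⟨rfl, hd⟩
    · exact ⟨∅, by simp⟩
    · exact ⟨_, subset_rfl, h3, disjoint_left.2 fun z hz h =>
        hd z (hle (mem_E.1 hz)) (mem_filter.1 h).2.1 (mem_filter.1 h).2.2⟩
  have h5 : d * c ^ (Fintype.card α - p + 1) ≤ ∑ y ∈ Z, c ^ cyc (univ : Finset α) y := by
    refine le_trans ?_ (card_nsmul_le_sum _ _ (c ^ (Fintype.card α - p + 1)) fun z hz => ?_)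
    · rw [nsmul_eq_mul]
      exact mul_le_mul_of_nonneg_right (Nat.cast_le.2 hZd) (by positivity)
    · obtain ⟨⟨x, hx, -⟩, h6⟩ := (mem_filter.1 (hZ hz)).2
      exact pow_le_pow_right₀ hc (h6 ▸ le_cyc z hx)
  have h6 := add_sum_erase (E P) (fun y => c ^ cyc (univ : Finset α) y) (mem_E.2 P.one_mem)
  have h7 : ∑ y ∈ E P ∪ Z, c ^ cyc (univ : Finset α) y ≤ ∑ y ∈ E Q, c ^ cyc (univ : Finset α) y :=
    sum_le_sum_of_subset_of_nonneg (union_subset (fun y hy => mem_E.2 (hPQ (mem_E.1 hy)))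
      (hZ.trans (filter_subset _ _))) fun _ _ _ => by positivity
  rw [sum_union hZP] at h7
  simp only [cyc_one] at h6
  linarith

theorem step_bd {p : ℕ} (hp : p.Prime) {c a : ℝ} (h : Num p c a) (hb : ∀ m, Bd.{u} p m (c ^ m))
    (m : ℕ) : Bd.{u} (p + 1) m (a ^ m) := fun β _ H hβ => by
  have h1 := step hp h hb H 0 (Or.inl rfl)
  have h2 := hb m β H hβ
  have h3 := pow_mul_pow_le (by linarith [h.1]) h.2.1 m p
  rw [hβ] at h1
  simp only [Nat.cast_zero, zero_mul] at h1
  linarith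

theorem crude {p : ℕ} (hp : p.Prime) (H : Subgroup (Perm α)) {B j : ℕ} {b : ℝ} (hb0 : 0 ≤ b)
    (hB : ∀ P ≤ H, IsPGroup p P → Nat.card P ≤ B)
    (hj : ∀ y ∈ H, y ≠ 1 → IsPGroup p (Subgroup.zpowers y) → j * p ≤ y.support.card)
    (hb : ∀ m, m + j * (p - 1) ≤ Fintype.card α → Bd.{u} p m b) :
    (kap H (p + 1) : ℝ) ≤ kap H p + (B - 1) * b := by
  obtain ⟨P, hle, hP, h1⟩ := peel_elt H hp
  refine (h1 (fun _ => b) (fun _ => hb0) fun y hy h => ?_).trans ?_
  · have := hP.to_le (Subgroup.zpowers_le.2 hy)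
    exact hb _ (cyc_add_le hp this (hj y (hle hy) h this))
  · rw [sum_const, nsmul_eq_mul, card_erase_of_mem (mem_E.2 P.one_mem), card_E,
      Nat.cast_sub Nat.card_pos]
    have : (Nat.card P : ℝ) ≤ B := by exact_mod_cast hB P hle hP
    push_cast
    nlinarith

end CfsgLib.KPerm
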